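import Mathlib
import Cfsg.Agent.H364.Iso3

/-!
# Isolated abelian Hall subgroups (helper812)

The structure theorem `H364.Isol.struct` for an abelian (instead of cyclic) isolated Hall subgroup.
-/

set_option autoImplicit false

namespace Cfsg.Agent.H812.CS

open Subgroup Cfsg.Agent.H364

/-- `T` is an abelian Hall subgroup of order `m` and no element of prime order `r ∣ m` commutes with an element of
prime order `s ∤ m`. -/
structure IsolA (G : Type*) [Group G] (T : Subgroup G) (m : ℕ) : Prop where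
  comm' : ∀ a ∈ T, ∀ b ∈ T, Commute a b
  card : Nat.card T = m
  cop : m.Coprime (Nat.card G / m)
  edge : ∀ r s : ℕ, r.Prime → s.Prime → r ∣ m → ¬ s ∣ m → NoEdge G r s

namespace IsolA

variable {G : Type*} [Group G] [Finite G] {T : Subgroup G} {m : ℕ}

theorem pos (h : IsolA G T m) : 0 < m := h.card ▸ Nat.card_pos

omit [Finite G] in
theorem dvd (h : IsolA G T m) : m ∣ Nat.card G := h.card ▸ Subgroup.card_subgroup_dvd_card T

omit [Finite G] in
theorem comm (h : IsolA G T m) {a b : G} (ha : a ∈ T) (hb : b ∈ T) : Commute a b := h.comm' a ha b hb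

omit [Finite G] in
theorem mul_eq (h : IsolA G T m) : m * (Nat.card G / m) = Nat.card G := Nat.mul_div_cancel' h.dvd

/-- A subgroup containing `T` with only primes dividing `m` is `T`. -/
theorem eq_of_primes (h : IsolA G T m) {C : Subgroup G} (hTC : T ≤ C)
    (hp : ∀ s, s.Prime → s ∣ Nat.card C → s ∣ m) : C = T := by
  have h1 : Nat.card T * T.relIndex C = Nat.card C := by
    rw [← Subgroup.relIndex_bot_left T, ← Subgroup.relIndex_bot_left C]
    exact Subgroup.relIndex_mul_relIndex _ _ _ bot_le hTC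
  have h2 : Nat.card C ∣ Nat.card G := Subgroup.card_subgroup_dvd_card C
  have h3 : T.relIndex C ∣ Nat.card G / m := by
    rw [← h1, h.card, ← h.mul_eq] at h2
    exact Nat.dvd_of_mul_dvd_mul_left h.pos h2
  have h4 : T.relIndex C = 1 := by
    by_contra hne
    obtain ⟨s, hs, hsd⟩ := Nat.exists_prime_and_dvd hne
    have h5 : s ∣ m := hp s hs (hsd.trans (h1 ▸ Dvd.intro_left _ rfl))
    have h6 : s ∣ Nat.card G / m := hsd.trans h3
    have := Nat.dvd_gcd h5 h6
    rw [h.cop] at this
    exact hs.one_lt.ne' (Nat.dvd_one.1 this)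
  exact le_antisymm (Subgroup.relIndex_eq_one.1 h4) hTC

/-- The centralizer of a nontrivial element of `T` is `T`. -/
theorem commute_mem (h : IsolA G T m) {t x : G} (ht : t ∈ T) (ht1 : t ≠ 1) (hx : Commute t x) : x ∈ T := by
  have hTC : T ≤ centralizer ({t} : Set G) := fun a ha => by
    rw [Subgroup.mem_centralizer_singleton_iff]
    exact (h.comm ha ht).eq
  have hC : centralizer ({t} : Set G) = T := by
    refine h.eq_of_primes hTC fun s hs hsd => ?_
    by_contra hsm
    have := Fact.mk hs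
    obtain ⟨b, hb⟩ := exists_prime_orderOf_dvd_card' s hsd
    have hn1 : orderOf t ≠ 1 := fun h => ht1 (orderOf_eq_one_iff.1 h)
    obtain ⟨r, hr, hrd⟩ := Nat.exists_prime_and_dvd hn1
    have hrm : r ∣ m := by
      rw [← h.card]
      refine hrd.trans ?_
      have := orderOf_dvd_natCard (⟨t, ht⟩ : T)
      rwa [← Subgroup.orderOf_coe] at this
    have hbt : Commute t (b : G) := by
      have := Subgroup.mem_centralizer_singleton_iff.1 b.2
      exact (show (b : G) * t = t * b from this).symm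
    refine (h.edge r s hr hs hrm hsm).false_of_dvd hr hs ?_ hbt hrd ?_
    · rintro rfl; exact hsm hrm
    · rw [Subgroup.orderOf_coe, hb]
  rw [← hC, Subgroup.mem_centralizer_singleton_iff]
  exact hx.eq.symm

/-- `N_G(A) ≤ N_G(T)` for a nontrivial subgroup `A` of `T`. -/
theorem normalizer_le (h : IsolA G T m) {A : Subgroup G} (hA : A ≤ T) (hA1 : A ≠ ⊥) :
    normalizer (A : Set G) ≤ normalizer (T : Set G) := by
  obtain ⟨a, ha⟩ := Subgroup.ne_bot_iff_exists_ne_one.1 hA1
  obtain ⟨a, haA, ha1⟩ : ∃ a : G, a ∈ A ∧ a ≠ 1 := ⟨(a : G), a.2, fun h => ha (Subtype.ext h)⟩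
  have key : ∀ g ∈ normalizer (A : Set G), ∀ x ∈ T, g * x * g⁻¹ ∈ T := by
    intro g hg x hx
    have h1 : g * a * g⁻¹ ∈ A := (Subgroup.mem_normalizer_iff.1 hg a).1 haA
    refine h.commute_mem (hA h1) ?_ ?_
    · intro h2
      apply ha1
      have : g⁻¹ * (g * a * g⁻¹) * g = 1 := by rw [h2]; simp
      simpa [mul_assoc] using this
    · have h3 := h.comm (hA haA) hx
      change (g * a * g⁻¹) * (g * x * g⁻¹) = (g * x * g⁻¹) * (g * a * g⁻¹)
      have h4 : a * x = x * a := h3
      calc (g * a * g⁻¹) * (g * x * g⁻¹) = g * (a * x) * g⁻¹ := by group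
        _ = g * (x * a) * g⁻¹ := by rw [h4]
        _ = _ := by group
  intro g hg
  rw [Subgroup.mem_normalizer_iff]
  intro x
  refine ⟨key g hg x, fun hx => ?_⟩
  have := key g⁻¹ (inv_mem hg) _ hx
  simpa [mul_assoc] using this

theorem not_mem_conj (h : IsolA G T m) {g t : G} (ht : t ∈ T) (ht1 : t ≠ 1) (hg : g ∉ T) : g * t * g⁻¹ ≠ t := by
  intro h1
  exact hg (h.commute_mem ht ht1 ((mul_inv_eq_iff_eq_mul.1 h1 : g * t = t * g)).symm)

/-- The order of the normaliser: `|N(T)| = m * n` with `n ∣ m - 1`. -/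
theorem exists_n (h : IsolA G T m) : ∃ n, Nat.card (normalizer (T : Set G)) = m * n ∧ n ∣ m - 1 := by
  have hTN : T ≤ normalizer (T : Set G) := Subgroup.le_normalizer
  obtain ⟨n, hn⟩ : m ∣ Nat.card (normalizer (T : Set G)) := by
    rw [← h.card]; exact Subgroup.card_dvd_of_le hTN
  refine ⟨n, hn, ?_⟩
  have hmpos := h.pos
  -- nontrivial elements
  let Y : Type _ := {t : T // t ≠ 1}
  have hY : Nat.card Y = m - 1 := by
    have := Fintype.ofFinite T
    classical
    rw [← h.card, Nat.card_eq_fintype_card, Nat.card_eq_fintype_card, Fintype.card_subtype_compl,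
      Fintype.card_subtype_eq]
  have hN : ∀ (x : normalizer (T : Set G)) (t : T), (x : G) * t * (x : G)⁻¹ ∈ T := fun x t =>
    (Subgroup.mem_normalizer_iff.1 x.2 t).1 t.2
  have hact1 : ∀ (x : normalizer (T : Set G)) (t : Y),
      (⟨(x : G) * (t.1 : G) * (x : G)⁻¹, hN x t.1⟩ : T) ≠ 1 := by
    intro x t h1
    apply t.2
    apply Subtype.ext
    have h2 : (x : G) * (t.1 : G) * (x : G)⁻¹ = 1 := congrArg Subtype.val h1
    have : (x : G)⁻¹ * ((x : G) * (t.1 : G) * (x : G)⁻¹) * x = 1 := by rw [h2]; simp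
    simpa [mul_assoc] using this
  let act : MulAction (normalizer (T : Set G)) Y :=
    { smul := fun x t => ⟨⟨(x : G) * (t.1 : G) * (x : G)⁻¹, hN x t.1⟩, hact1 x t⟩
      one_smul := fun t => Subtype.ext (Subtype.ext (by
        change ((1 : normalizer (T : Set G)) : G) * (t.1 : G) * ((1 : normalizer (T : Set G)) : G)⁻¹ = t.1
        simp))
      mul_smul := fun x y t => Subtype.ext (Subtype.ext (by
        change ((x * y : normalizer (T : Set G)) : G) * (t.1 : G) * ((x * y : normalizer (T : Set G)) : G)⁻¹ =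
          (x : G) * ((y : G) * (t.1 : G) * (y : G)⁻¹) * (x : G)⁻¹
        simp [mul_assoc])) }
  have hstab : ∀ t : Y, Nat.card (MulAction.stabilizer (normalizer (T : Set G)) t) = m := by
    intro t
    have h1 : MulAction.stabilizer (normalizer (T : Set G)) t = T.subgroupOf (normalizer (T : Set G)) := by
      ext x
      rw [MulAction.mem_stabilizer_iff, Subgroup.mem_subgroupOf]
      have ht1 : ((t.1 : T) : G) ≠ 1 := fun h => t.2 (Subtype.ext h)
      constructor
      · intro hx
        have h2 : (x : G) * (t.1 : G) * (x : G)⁻¹ = t.1 := congrArg (fun y : Y => ((y.1 : T) : G)) hx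
        by_contra h3
        exact h.not_mem_conj t.1.2 ht1 h3 h2
      · intro hx
        apply Subtype.ext
        apply Subtype.ext
        change (x : G) * (t.1 : G) * (x : G)⁻¹ = t.1
        exact mul_inv_eq_iff_eq_mul.2 (h.comm hx t.1.2)
    rw [h1, Nat.card_congr (Subgroup.subgroupOfEquivOfLe hTN).toEquiv, h.card]
  obtain ⟨k, hk⟩ := Cfsg.Agent.Lib.ActCount.exists_card_mul (H := normalizer (T : Set G)) (Y := Y) m hstab
  rw [hn, hY] at hk
  have hk2 : m * (m - 1) = m * (k * n) := by rw [hk]; ring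
  have hk3 : m - 1 = k * n := Nat.eq_of_mul_eq_mul_left hmpos hk2
  exact Dvd.intro_left _ hk3.symm

omit [Finite G] in
theorem not_dvd_div (h : IsolA G T m) {r : ℕ} (hr : r.Prime) (hrm : r ∣ m) : ¬ r ∣ Nat.card G / m := fun h3 => by
  have := Nat.dvd_gcd hrm h3
  rw [h.cop] at this
  exact hr.one_lt.ne' (Nat.dvd_one.1 this)

theorem div_ne_zero (h : IsolA G T m) : Nat.card G / m ≠ 0 := fun h4 => by
  have := h.mul_eq
  rw [h4, mul_zero] at this
  exact Nat.card_pos.ne this

theorem factorization_eq (h : IsolA G T m) {r : ℕ} (hr : r.Prime) (hrm : r ∣ m) :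
    m.factorization r = (Nat.card G).factorization r := by
  rw [← h.mul_eq, Nat.factorization_mul h.pos.ne' h.div_ne_zero, Finsupp.add_apply,
    Nat.factorization_eq_zero_of_not_dvd (h.not_dvd_div hr hrm), add_zero]

/-- `T` contains a Sylow `r`-subgroup of `G`. -/
theorem exists_sylow (h : IsolA G T m) {r : ℕ} [hr : Fact r.Prime] (hrm : r ∣ m) :
    ∃ R : Sylow r G, (R : Subgroup G) ≤ T := by
  obtain ⟨R⟩ : Nonempty (Sylow r T) := inferInstance
  have h1 : Nat.card ((R : Subgroup T).map T.subtype) = r ^ (Nat.card G).factorization r := by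
    rw [Subgroup.card_map_of_injective T.subtype_injective, R.card_eq_multiplicity, h.card]
    rw [h.factorization_eq hr.out hrm]
  exact ⟨Sylow.ofCard _ h1, fun x hx => by
    obtain ⟨y, _, rfl⟩ := Subgroup.mem_map.1 hx
    exact y.2⟩

/-- The normalizer of `T` controls the index: `|G| / m ≡ n mod m`. -/
theorem modEq (h : IsolA G T m) {n : ℕ} (hn : Nat.card (normalizer (T : Set G)) = m * n) :
    Nat.card G / m ≡ n [MOD m] := by
  have hTN : T ≤ normalizer (T : Set G) := Subgroup.le_normalizer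
  -- `T` acts on the cosets of `N(T)`
  set N := normalizer (T : Set G) with hN
  let Y : Type _ := {c : G ⧸ N // c ≠ ((1 : G) : G ⧸ N)}
  have h1 : ∀ (t : T), (t : G) • ((1 : G) : G ⧸ N) = ((1 : G) : G ⧸ N) := by
    intro t
    change (((t : G) * 1 : G) : G ⧸ N) = _
    rw [mul_one]
    exact (QuotientGroup.eq.2 (by simpa using hTN t.2)).symm
  let act : MulAction T Y :=
    { smul := fun t c => ⟨(t : G) • c.1, fun hc => c.2 (by
        have h2 : (t : G)⁻¹ • ((t : G) • c.1) = (t : G)⁻¹ • ((1 : G) : G ⧸ N) := by rw [hc]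
        rw [inv_smul_smul] at h2
        have h3 := h1 t⁻¹
        rw [Subgroup.coe_inv] at h3
        rw [h2, h3])⟩
      one_smul := fun c => Subtype.ext (one_smul G c.1)
      mul_smul := fun s t c => Subtype.ext (mul_smul (s : G) (t : G) c.1) }
  have hstab : ∀ c : Y, Nat.card (MulAction.stabilizer T c) = 1 := by
    intro c
    rw [Subgroup.card_eq_one, eq_bot_iff]
    intro t ht
    rw [Subgroup.mem_bot]
    by_contra ht1
    have ht1' : (t : G) ≠ 1 := fun h => ht1 (Subtype.ext h)
    have h2 : (t : G) • c.1 = c.1 := congrArg Subtype.val (MulAction.mem_stabilizer_iff.1 ht)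
    obtain ⟨⟨g⟩, hg⟩ := c
    apply hg
    change (((t : G) * g : G) : G ⧸ N) = ((g : G) : G ⧸ N) at h2
    have h3 : g⁻¹ * (t : G) * g ∈ N := by
      have := QuotientGroup.eq.1 h2.symm
      simpa [mul_assoc] using this
    -- `g⁻¹ t g ∈ T`
    have hord : orderOf (g⁻¹ * (t : G) * g) ∣ m := by
      have h4 : orderOf (g⁻¹ * (t : G) * g) = orderOf (t : G) := by
        have := (MulAut.conj g⁻¹).orderOf_eq (t : G)
        simpa using this
      rw [h4, ← h.card, Subgroup.orderOf_coe]
      exact orderOf_dvd_natCard t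
    have h5 : g⁻¹ * (t : G) * g ∈ T := by
      -- the image in `N / T` has order prime to `m`
      have hcop : m.Coprime n := by
        have h6 : n ∣ Nat.card G / m := by
          have h7 : m * n ∣ Nat.card G := hn ▸ Subgroup.card_subgroup_dvd_card N
          rw [← h.mul_eq] at h7
          exact Nat.dvd_of_mul_dvd_mul_left h.pos h7
        exact Nat.Coprime.coprime_dvd_right h6 h.cop
      have hTn : (T.subgroupOf N).Normal := by
        rw [Subgroup.normal_subgroupOf_iff_le_normalizer hTN]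
      have hidx : (T.subgroupOf N).index = n := by
        have h6 := Subgroup.card_mul_index (T.subgroupOf N)
        rw [hn, Nat.card_congr (Subgroup.subgroupOfEquivOfLe hTN).toEquiv, h.card] at h6
        exact Nat.eq_of_mul_eq_mul_left h.pos h6
      have h7 : orderOf (QuotientGroup.mk' (T.subgroupOf N) ⟨_, h3⟩) = 1 := by
        apply Nat.eq_one_of_dvd_coprimes hcop
        · refine (orderOf_map_dvd _ _).trans ?_
          rwa [Subgroup.orderOf_mk]
        · rw [← hidx, Subgroup.index_eq_card]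
          exact orderOf_dvd_natCard _
      rw [orderOf_eq_one_iff] at h7
      exact Subgroup.mem_subgroupOf.1 ((QuotientGroup.eq_one_iff (N := T.subgroupOf N) _).1 h7)
    have h6 : g⁻¹ * (t : G) * g ≠ 1 := by
      intro h7
      apply ht1'
      have : g * (g⁻¹ * (t : G) * g) * g⁻¹ = 1 := by rw [h7]; simp
      simpa [mul_assoc] using this
    -- `g T g⁻¹ = T`
    have h7 : g ∈ N := by
      have key : ∀ x ∈ T, g * x * g⁻¹ ∈ T := by
        intro x hx
        refine h.commute_mem t.2 ht1' ?_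
        have h8 := h.comm h5 hx
        have h9 := h8.map (MulAut.conj g).toMonoidHom
        simpa [mul_assoc] using h9
      have key2 : ∀ x ∈ T, g⁻¹ * x * g ∈ T := by
        intro x hx
        refine h.commute_mem h5 h6 ?_
        have h8 := h.comm t.2 hx
        have h9 := h8.map (MulAut.conj g⁻¹).toMonoidHom
        simpa [mul_assoc] using h9
      rw [hN, Subgroup.mem_normalizer_iff]
      intro x
      refine ⟨key x, fun hx => ?_⟩
      have := key2 _ hx
      simpa [mul_assoc] using this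
    exact (QuotientGroup.eq.2 (by simpa using N.inv_mem h7))
  obtain ⟨k, hk⟩ := Cfsg.Agent.Lib.ActCount.exists_card_mul (H := T) (Y := Y) 1 hstab
  have hY : Nat.card Y = N.index - 1 := by
    have := Fintype.ofFinite (G ⧸ N)
    classical
    rw [Subgroup.index_eq_card, Nat.card_eq_fintype_card, Nat.card_eq_fintype_card, Fintype.card_subtype_compl,
      Fintype.card_subtype_eq]
  rw [hY, h.card, one_mul] at hk
  have hpos : 0 < N.index := Nat.pos_of_ne_zero Subgroup.index_ne_zero_of_finite
  have h2 : N.index ≡ 1 [MOD m] := by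
    have : 1 ≤ N.index := hpos
    exact ((Nat.modEq_iff_dvd' this).2 (hk ▸ Dvd.intro_left _ rfl)).symm
  have h3 := Subgroup.card_mul_index N
  rw [hn, mul_assoc] at h3
  have h4 : Nat.card G / m = n * N.index := by
    rw [← h3]; exact Nat.mul_div_cancel_left _ h.pos
  rw [h4]
  simpa using h2.mul_left n

/-- Conjugates of isolated subgroups are isolated. -/
theorem conj {G : Type*} [Group G] {T : Subgroup G} {m : ℕ} (h : IsolA G T m) (g : G) :
    IsolA G (T.map (MulAut.conj g).toMonoidHom) m where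
  comm' := by
    rintro _ ⟨a, ha, rfl⟩ _ ⟨b, hb, rfl⟩
    exact (h.comm ha hb).map _
  card := by rw [Subgroup.card_map_of_injective (MulAut.conj g).injective, h.card]
  cop := h.cop
  edge := h.edge

theorem card_normalizer_conj {G : Type*} [Group G] [Finite G] {T : Subgroup G} {m n : ℕ} (_h : IsolA G T m)
    (hn : Nat.card (normalizer (T : Set G)) = m * n) (g : G) :
    Nat.card (normalizer ((T.map (MulAut.conj g).toMonoidHom : Subgroup G) : Set G)) = m * n := by
  rw [← hn]
  have h1 := Subgroup.map_equiv_normalizer_eq T (MulAut.conj g)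
  change (normalizer (T : Set G)).map (MulAut.conj g).toMonoidHom =
    normalizer ((T.map (MulAut.conj g).toMonoidHom : Subgroup G) : Set G) at h1
  rw [← h1, Subgroup.card_map_of_injective (MulAut.conj g).injective]

/-- **Structure theorem**, core free case. -/
theorem struct_core {G : Type*} [Group G] [Finite G] {T : Subgroup G} {m n : ℕ} (h : IsolA G T m) (hm : 1 < m)
    (h2 : ¬ 2 ∣ m) (hn : Nat.card (normalizer (T : Set G)) = m * n)
    (hcor : ∀ L : Subgroup G, L.Normal → (Nat.card L).Coprime m → L = ⊥) :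
    Nat.card G = m * n ∨ ∃ N : Subgroup G, N.Normal ∧ IsSimpleGroup N ∧ (¬ ∀ a b : N, a * b = b * a) ∧
      centralizer (N : Set G) = ⊥ ∧ T ≤ N ∧ ∃ n', 1 < n' ∧ n' * N.index = n := by
  have hnt : Nontrivial G := by
    rw [← Finite.one_lt_card_iff_nontrivial]
    exact lt_of_lt_of_le hm (Nat.le_of_dvd Nat.card_pos h.dvd)
  obtain ⟨N, hNn, hN, hmin⟩ := exists_minimal_normal G
  obtain ⟨r, hr, hrN, hrm⟩ := Nat.Prime.not_coprime_iff_dvd.1 (fun hc => hN (hcor N hNn hc))
  have := Fact.mk hr
  rcases minimal_normal_cases N hN hmin hr hrN with hpg | ⟨k, S, hk, hSN, hS, hSna, hSr, hScard, hScomm, hSsup⟩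
  · left
    obtain ⟨R, hRT⟩ := h.exists_sylow hrm
    have h1 : N ≤ T := (hpg.le_sylow_of_normal R).trans hRT
    have h3 := h.normalizer_le h1 hN
    rw [Subgroup.normalizer_eq_top, top_le_iff] at h3
    rw [h3, Subgroup.card_top] at hn
    exact hn
  · right
    have hS2 : ∀ i, 2 ∣ Nat.card (S i) := fun i => by
      have := hS i
      exact two_dvd_card (hSna i)
    have hr2 : r ≠ 2 := by rintro rfl; exact h2 hrm
    have hk1 : k = 1 := by
      by_contra hne
      have h01 : (⟨0, hk⟩ : Fin k) ≠ ⟨1, by omega⟩ := by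
        intro h; simp at h
      exact (h.edge r 2 hr Nat.prime_two hrm h2).false_of_subgroups hr Nat.prime_two hr2
        (hScomm _ _ h01) (hSr _) (hS2 _)
    subst hk1
    have hNS : S 0 = N := by
      rw [← hSsup]
      exact (iSup_unique (f := S)).symm
    have hNs : IsSimpleGroup N := hNS ▸ hS 0
    have hNna : ¬ ∀ a b : N, a * b = b * a := hNS ▸ hSna 0
    have hN2 : 2 ∣ Nat.card N := hNS ▸ hS2 0
    have hcent : centralizer (N : Set G) = ⊥ := by
      refine hcor _ inferInstance ?_
      by_contra hc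
      obtain ⟨r', hr', hr'C, hr'm⟩ := Nat.Prime.not_coprime_iff_dvd.1 hc
      refine (h.edge r' 2 hr' Nat.prime_two hr'm h2).false_of_subgroups hr' Nat.prime_two
        (by rintro rfl; exact h2 hr'm) (A := centralizer (N : Set G)) (B := N) ?_ hr'C hN2
      intro a ha b hb
      exact (Subgroup.mem_centralizer_iff.1 ha b hb).symm
    obtain ⟨Q⟩ : Nonempty (Sylow r N) := inferInstance
    -- a conjugate `T'` of `T` containing the Sylow subgroup of `N`
    have hQp : IsPGroup r ((Q : Subgroup N).map N.subtype) := Q.isPGroup'.map _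
    obtain ⟨R, hRT⟩ := h.exists_sylow hrm
    obtain ⟨g, hg⟩ : ∃ g : G, (Q : Subgroup N).map N.subtype ≤ T.map (MulAut.conj g).toMonoidHom := by
      obtain ⟨R', hR'⟩ := hQp.exists_le_sylow
      obtain ⟨g, hg⟩ := MulAction.exists_smul_eq G R R'
      refine ⟨g, hR'.trans ?_⟩
      rw [← hg]
      exact Subgroup.map_mono hRT
    have h' := h.conj g
    set T' : Subgroup G := T.map (MulAut.conj g).toMonoidHom with hT'
    have hn' : Nat.card (normalizer (T' : Set G)) = m * n := h.card_normalizer_conj hn g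
    set Q' : Subgroup G := (Q : Subgroup N).map N.subtype with hQ'
    have hQ1 : (Q : Subgroup N) ≠ ⊥ := Q.ne_bot_of_dvd_card hrN
    have hQ'1 : Q' ≠ ⊥ := fun h => hQ1 ((Subgroup.map_eq_bot_iff_of_injective _ N.subtype_injective).1 h)
    have hle : normalizer (Q' : Set G) ≤ normalizer (T' : Set G) := h'.normalizer_le hg hQ'1
    have hsup : normalizer (T' : Set G) ⊔ N = ⊤ := by
      rw [eq_top_iff, ← Sylow.normalizer_sup_eq_top Q]
      exact sup_le_sup_right hle N
    obtain ⟨x, hxN, hxT, hxN'⟩ : ∃ x ∈ N, x ∉ T' ∧ x ∈ normalizer (T' : Set G) := by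
      by_contra hcon
      push Not at hcon
      have hle2 : normalizer ((Q : Subgroup N) : Set N) ≤ centralizer ((Q : Subgroup N) : Set N) := by
        intro x hx
        have h3 : (x : G) ∈ normalizer (Q' : Set G) := by
          rw [Subgroup.mem_normalizer_iff] at hx ⊢
          intro y
          rw [hQ', Subgroup.mem_map, Subgroup.mem_map]
          constructor
          · rintro ⟨z, hz, rfl⟩
            exact ⟨x * z * x⁻¹, (hx z).1 hz, rfl⟩
          · rintro ⟨z, hz, hzy⟩
            refine ⟨x⁻¹ * z * x, (hx _).2 (by simpa [mul_assoc] using hz), ?_⟩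
            have : (x : G)⁻¹ * (N.subtype z) * x = y := by rw [hzy]; simp [mul_assoc]
            rw [← this]; rfl
        have h4 : (x : G) ∈ T' := by
          by_contra h5
          exact hcon x x.2 h5 (hle h3)
        rw [Subgroup.mem_centralizer_iff]
        intro y hy
        apply Subtype.ext
        have h5 : (y : G) ∈ T' := hg ⟨y, hy, rfl⟩
        exact (h'.comm h5 h4).eq
      have hcompl := MonoidHom.ker_transferSylow_isComplement' Q hle2
      rcases (inferInstance : (MonoidHom.transferSylow Q hle2).ker.Normal).eq_bot_or_eq_top with h3 | h3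
      · rw [h3, Subgroup.isComplement'_bot_left] at hcompl
        apply hNna
        intro a b
        have ha : a ∈ (Q : Subgroup N) := hcompl ▸ Subgroup.mem_top a
        have hb : b ∈ (Q : Subgroup N) := hcompl ▸ Subgroup.mem_top b
        exact (Subgroup.mem_centralizer_iff.1 (hle2 (Subgroup.le_normalizer hb)) a ha)
      · rw [h3, Subgroup.isComplement'_top_left] at hcompl
        exact hQ1 hcompl
    have hT'N : T' ≤ N := by
      have hmem : ∀ t : T', x * t * x⁻¹ * (t : G)⁻¹ ∈ T' := fun t =>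
        T'.mul_mem ((Subgroup.mem_normalizer_iff.1 hxN' t).1 t.2) (T'.inv_mem t.2)
      let φ : T' → T' := fun t => ⟨x * t * x⁻¹ * (t : G)⁻¹, hmem t⟩
      have hinj : Function.Injective φ := by
        intro s t hst
        by_contra hne
        have h3 : x * s * x⁻¹ * (s : G)⁻¹ = x * t * x⁻¹ * (t : G)⁻¹ := congrArg Subtype.val hst
        have hu : ((t : G)⁻¹ * s) ∈ T' := T'.mul_mem (T'.inv_mem t.2) s.2
        have hu1 : ((t : G)⁻¹ * s) ≠ 1 := fun h5 => hne (Subtype.ext (inv_mul_eq_one.1 h5).symm)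
        apply h'.not_mem_conj hu hu1 hxT
        have h4 : Commute ((x : G) * t * x⁻¹) ((t : G)⁻¹) :=
          h'.comm ((Subgroup.mem_normalizer_iff.1 hxN' t).1 t.2) (T'.inv_mem t.2)
        calc x * ((t : G)⁻¹ * s) * x⁻¹ = (x * t * x⁻¹)⁻¹ * (x * s * x⁻¹ * (s : G)⁻¹) * s := by group
          _ = (x * t * x⁻¹)⁻¹ * ((x * t * x⁻¹) * (t : G)⁻¹) * s := by rw [h3]
          _ = (t : G)⁻¹ * s := by group
      have hsurj := Finite.surjective_of_injective hinj
      intro t ht
      obtain ⟨s, hs⟩ := hsurj ⟨t, ht⟩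
      have h3 : x * s * x⁻¹ * (s : G)⁻¹ = t := congrArg Subtype.val hs
      rw [← h3]
      have h4 : x * s * x⁻¹ * (s : G)⁻¹ = x * ((s : G) * x⁻¹ * (s : G)⁻¹) := by group
      rw [h4]
      exact N.mul_mem hxN (hNn.conj_mem _ (N.inv_mem hxN) _)
    have hTN : T ≤ N := by
      intro t ht
      have h3 : g * t * g⁻¹ ∈ N := hT'N ⟨t, ht, rfl⟩
      have := hNn.conj_mem _ h3 g⁻¹
      simpa [mul_assoc] using this
    refine ⟨N, hNn, hNs, hNna, hcent, hTN, ?_⟩
    -- indices
    have h3 : N.index = N.relIndex (normalizer (T' : Set G)) := by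
      rw [← Subgroup.relIndex_top_right, ← hsup, Subgroup.relIndex_sup_right]
    have h4 : Nat.card (N ⊓ normalizer (T' : Set G) : Subgroup G) * N.relIndex (normalizer (T' : Set G)) =
        Nat.card (normalizer (T' : Set G)) := by
      rw [← Subgroup.inf_relIndex_right N, ← Subgroup.relIndex_bot_left (N ⊓ normalizer (T' : Set G)),
        ← Subgroup.relIndex_bot_left (normalizer (T' : Set G))]
      exact Subgroup.relIndex_mul_relIndex _ _ _ bot_le inf_le_right
    have h5 : T' ≤ N ⊓ normalizer (T' : Set G) := le_inf hT'N Subgroup.le_normalizer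
    obtain ⟨n', hn''⟩ : m ∣ Nat.card (N ⊓ normalizer (T' : Set G) : Subgroup G) := by
      rw [← h'.card]; exact Subgroup.card_dvd_of_le h5
    refine ⟨n', ?_, ?_⟩
    · by_contra hlt
      have h6 : Nat.card (N ⊓ normalizer (T' : Set G) : Subgroup G) ≤ Nat.card T' := by
        rw [hn'', h'.card]
        calc m * n' ≤ m * 1 := Nat.mul_le_mul_left _ (by omega)
          _ = m := mul_one m
      have h7 := Subgroup.eq_of_le_of_card_ge h5 h6
      exact hxT (h7 ▸ (⟨hxN, hxN'⟩ : x ∈ N ⊓ normalizer (T' : Set G)))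
    · rw [hn', hn'', ← h3, mul_assoc] at h4
      exact Nat.eq_of_mul_eq_mul_left h.pos h4

theorem quotient (h : IsolA G T m) {K : Subgroup G} [K.Normal] (hK : (Nat.card K).Coprime m) :
    IsolA (G ⧸ K) (T.map (QuotientGroup.mk' K)) m := by
  have hdisj : T ⊓ K = ⊥ := by
    rw [← Subgroup.card_eq_one]
    have h1 : Nat.card (T ⊓ K : Subgroup G) ∣ m := h.card ▸ Subgroup.card_dvd_of_le inf_le_left
    have h2 : Nat.card (T ⊓ K : Subgroup G) ∣ Nat.card K := Subgroup.card_dvd_of_le inf_le_right
    exact Nat.eq_one_of_dvd_coprimes hK h2 h1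
  have hcard : Nat.card (T.map (QuotientGroup.mk' K)) = m := by
    rw [← h.card]
    refine (Nat.card_congr (Equiv.ofBijective (fun t : T => (⟨QuotientGroup.mk' K t, Subgroup.mem_map_of_mem _ t.2⟩ :
      T.map (QuotientGroup.mk' K))) ⟨?_, ?_⟩)).symm
    · intro s t hst
      have h1 : QuotientGroup.mk' K (s : G) = QuotientGroup.mk' K (t : G) := congrArg Subtype.val hst
      have h2 : (s : G)⁻¹ * t ∈ K := QuotientGroup.eq.1 h1
      have h3 : (s : G)⁻¹ * t ∈ T ⊓ K := ⟨T.mul_mem (T.inv_mem s.2) t.2, h2⟩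
      rw [hdisj, Subgroup.mem_bot] at h3
      exact Subtype.ext (inv_mul_eq_one.1 h3)
    · rintro ⟨x, hx⟩
      obtain ⟨t, ht, rfl⟩ := Subgroup.mem_map.1 hx
      exact ⟨⟨t, ht⟩, rfl⟩
  have hGK : Nat.card G = Nat.card K * Nat.card (G ⧸ K) := by
    rw [← Subgroup.card_mul_index K, Subgroup.index_eq_card]
  have hm : m ∣ Nat.card (G ⧸ K) := hcard ▸ Subgroup.card_subgroup_dvd_card _
  refine ⟨?_, hcard, ?_, fun r s hr hs hrm hsm => noEdge_quotient K (h.edge r s hr hs hrm hsm)⟩
  · rintro _ ⟨a, ha, rfl⟩ _ ⟨b, hb, rfl⟩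
    exact (h.comm ha hb).map _
  · have h1 := h.cop
    rw [hGK, Nat.mul_div_assoc _ hm] at h1
    exact Nat.Coprime.coprime_dvd_right (Dvd.intro_left _ rfl) h1

/-- **General structure theorem** for a finite group with an isolated abelian Hall subgroup of odd order `m > 1`. -/
theorem struct (h : IsolA G T m) (hm : 1 < m) (h2 : ¬ 2 ∣ m) :
    ∃ (K : Subgroup G) (_ : K.Normal) (n : ℕ), (Nat.card K).Coprime m ∧
      (∀ t, t.Prime → m ∣ t ^ (Nat.card K).factorization t - 1) ∧
      (n ∣ m - 1 ∧ Nat.card G / m ≡ n [MOD m]) ∧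
      (Nat.card G = Nat.card K * (m * n) ∨
        ∃ N : Subgroup (G ⧸ K), N.Normal ∧ IsSimpleGroup N ∧ (¬ ∀ a b : N, a * b = b * a) ∧
          centralizer (N : Set (G ⧸ K)) = ⊥ ∧ m ∣ Nat.card N ∧ ∃ n', 1 < n' ∧ n' * N.index = n) := by
  obtain ⟨K, hKn, hKm, hmax⟩ := exists_core G m
  have hGK : Nat.card G = Nat.card K * Nat.card (G ⧸ K) := by
    rw [← Subgroup.card_mul_index K, Subgroup.index_eq_card]
  have hq := h.quotient hKm
  obtain ⟨n, hn, hnr⟩ := hq.exists_n
  have hparts : ∀ t, t.Prime → m ∣ t ^ (Nat.card K).factorization t - 1 := by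
    intro t ht
    by_cases htm : t ∣ m
    · have h3 : ¬ t ∣ Nat.card K := fun h4 => by
        have := Nat.dvd_gcd h4 htm
        rw [hKm] at this
        exact ht.one_lt.ne' (Nat.dvd_one.1 this)
      rw [Nat.factorization_eq_zero_of_not_dvd h3, pow_zero, Nat.sub_self]
      exact dvd_zero m
    · apply dvd_of_prime_parts h.pos.ne'
      intro r hr hrm
      rw [h.factorization_eq hr hrm]
      refine congr_one K hr ht ?_ ?_ (h.edge r t hr ht hrm htm)
      · rintro rfl; exact htm hrm
      · intro h4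
        have := Nat.dvd_gcd h4 hrm
        rw [hKm] at this
        exact hr.one_lt.ne' (Nat.dvd_one.1 this)
  have hK1 : Nat.card K ≡ 1 [MOD m] := modEq_one_of_parts Nat.card_pos.ne' hparts
  refine ⟨K, hKn, n, hKm, hparts, ⟨hnr, ?_⟩, ?_⟩
  · have h3 := hq.modEq hn
    have h4 : Nat.card G / m = Nat.card K * (Nat.card (G ⧸ K) / m) := by
      rw [hGK, Nat.mul_div_assoc _ hq.dvd]
    rw [h4]
    simpa using hK1.mul h3
  · rcases hq.struct_core hm h2 hn (core_quotient hKm hmax) with h3 | ⟨N, h3, h4, h5, h6, h7, h8⟩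
    · left
      rw [hGK, h3]
    · right
      refine ⟨N, h3, h4, h5, h6, ?_, h8⟩
      rw [← hq.card]
      exact Subgroup.card_dvd_of_le h7

end IsolA

end Cfsg.Agent.H812.CS
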