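import Mathlib
import Cfsg.Agent.H812.CS.Iso
import Cfsg.Agent.H418.Frob

/-!
# Isolated Hall subgroups from centralizer orders (helper812)

`IsoC G m`: `m > 1` is a Hall divisor of `|G|` and every element of `G` whose order is divisible by a prime divisor of
`m` has a centralizer of order `m`.

`IsoC.exists_isol`: if the prime divisors of `m` are at least `5` and `|G| / m ≡ c mod m` with `c ≤ 4` then such a
centralizer is abelian.

`IsoC.struct`: the conclusion of `H364.Isol.struct` with `n = c`.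
-/

set_option autoImplicit false

namespace Cfsg.Agent.H812.CS

open Subgroup Cfsg.Agent.H364
open scoped Pointwise

/-- `m > 1` is a Hall divisor of `|G|` and every element of `G` whose order is divisible by a prime divisor of
`m` has a centralizer of order `m`. -/
structure IsoC (G : Type*) [Group G] (m : ℕ) : Prop where
  one : 1 < m
  dvd : m ∣ Nat.card G
  cop : m.Coprime (Nat.card G / m)
  cent : ∀ (r : ℕ) (y : G), r.Prime → r ∣ m → r ∣ orderOf y → Nat.card (centralizer ({y} : Set G)) = m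

theorem mem_cent' {G : Type*} [Group G] {x g : G} : x ∈ centralizer ({g} : Set G) ↔ Commute x g := by
  rw [Subgroup.mem_centralizer_singleton_iff]
  rfl

namespace IsoC

variable {G : Type*} [Group G] [Finite G] {m : ℕ}

omit [Finite G] in
theorem noEdge (h : IsoC G m) {r s : ℕ} (hr : r.Prime) (hrm : r ∣ m) (hsm : ¬ s ∣ m) : NoEdge G r s := by
  intro x hx
  apply hsm
  have h1 := h.cent r x hr hrm (by rw [hx]; exact Dvd.intro _ rfl)
  rw [← h1]
  have h2 := Subgroup.orderOf_mk x (mem_cent'.2 (Commute.refl x))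
  have h3 : s ∣ orderOf x := by rw [hx]; exact Dvd.intro_left _ rfl
  exact h3.trans (h2 ▸ orderOf_dvd_natCard _)

theorem le_cent (h : IsoC G m) {r : ℕ} (hr : r.Prime) (hrm : r ∣ m) {x u : G} (hx : orderOf x = r)
    (hu : (orderOf u).Coprime r) (hxu : Commute x u) : centralizer ({x} : Set G) ≤ centralizer ({u} : Set G) := by
  have ho : orderOf (x * u) = r * orderOf u := by
    rw [hxu.orderOf_mul_eq_mul_orderOf_of_coprime (by rw [hx]; exact hu.symm), hx]
  obtain ⟨k, hk⟩ := exists_pow_eq_self_of_coprime (x := x) (n := orderOf u) (by rw [hx]; exact hu)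
  have hz : ((x * u) ^ orderOf u) ^ k = x := by
    rw [hxu.mul_pow, pow_orderOf_eq_one, mul_one, hk]
  have h1 : centralizer ({x * u} : Set G) ≤ centralizer ({x} : Set G) := by
    intro g hg
    rw [mem_cent'] at hg ⊢
    have := (hg.pow_right (orderOf u)).pow_right k
    rwa [hz] at this
  have h2 : centralizer ({x * u} : Set G) = centralizer ({x} : Set G) := by
    apply Subgroup.eq_of_le_of_card_ge h1
    rw [h.cent r x hr hrm (by rw [hx]), h.cent r (x * u) hr hrm (by rw [ho]; exact Dvd.intro _ rfl)]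
  intro g hg
  have h3 : g ∈ centralizer ({x * u} : Set G) := h2 ▸ hg
  rw [mem_cent'] at hg h3 ⊢
  have h4 := hg.inv_right.mul_right h3
  rwa [inv_mul_cancel_left] at h4

/-- the case of two primes -/
theorem comm_of_two (h : IsoC G m) {r r' : ℕ} (hr : r.Prime) (hrm : r ∣ m) (hr' : r'.Prime) (hrm' : r' ∣ m)
    (hne : r' ≠ r) {y : G} (hy : orderOf y = r) :
    ∀ a ∈ centralizer ({y} : Set G), ∀ b ∈ centralizer ({y} : Set G), Commute a b := by
  set T := centralizer ({y} : Set G) with hT
  have hTm : Nat.card T = m := h.cent r y hr hrm (by rw [hy])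
  have := Fact.mk hr'
  obtain ⟨z, hz⟩ := exists_prime_orderOf_dvd_card' (G := T) r' (hTm ▸ hrm')
  have hz' : orderOf (z : G) = r' := by rw [Subgroup.orderOf_coe, hz]
  have hcop : r'.Coprime r := (Nat.coprime_primes hr' hr).2 hne
  have h1 : T ≤ centralizer ({(z : G)} : Set G) :=
    h.le_cent hr hrm hy (by rw [hz']; exact hcop) (mem_cent'.1 z.2).symm
  have h2 : T = centralizer ({(z : G)} : Set G) := by
    apply Subgroup.eq_of_le_of_card_ge h1
    rw [hTm, h.cent r' z hr' hrm' (by rw [hz'])]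
  intro a ha b hb
  obtain ⟨k, l, hl, hkl⟩ := Nat.exists_eq_pow_mul_and_not_dvd (orderOf_pos b).ne' r hr.ne_one
  have hl0 : l ≠ 0 := by rintro rfl; exact hl (dvd_zero r)
  have hrk : r ^ k ≠ 0 := pow_ne_zero _ hr.ne_zero
  have o1 : orderOf (b ^ l) = r ^ k := by
    rw [orderOf_pow_of_dvd hl0 (hkl ▸ Dvd.intro_left _ rfl), hkl]
    exact Nat.mul_div_cancel _ (Nat.pos_of_ne_zero hl0)
  have o2 : orderOf (b ^ r ^ k) = l := by
    rw [orderOf_pow_of_dvd hrk (hkl ▸ Dvd.intro _ rfl), hkl]
    exact Nat.mul_div_cancel_left _ (Nat.pos_of_ne_zero hrk)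
  have c1 : Commute a (b ^ l) := by
    have hz1 : Commute (z : G) (b ^ l) := by
      have : b ^ l ∈ T := T.pow_mem hb l
      rw [h2, mem_cent'] at this
      exact this.symm
    have h3 := h.le_cent hr' hrm' hz' (by rw [o1]; exact (hcop.symm.pow_left k)) hz1
    rw [← h2] at h3
    exact mem_cent'.1 (h3 ha)
  have c2 : Commute a (b ^ r ^ k) := by
    have hz1 : Commute y (b ^ r ^ k) := by
      have : b ^ r ^ k ∈ T := T.pow_mem hb _
      rw [hT, mem_cent'] at this
      exact this.symm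
    have h3 := h.le_cent hr hrm hy (by rw [o2]; exact ((Nat.Prime.coprime_iff_not_dvd hr).2 hl).symm) hz1
    exact mem_cent'.1 (h3 ha)
  have hg : Nat.gcd l (r ^ k) = 1 := Nat.Coprime.pow_right k ((Nat.Prime.coprime_iff_not_dvd hr).2 hl).symm
  have hb1 : b = (b ^ l) ^ (Nat.gcdA l (r ^ k)) * (b ^ r ^ k) ^ (Nat.gcdB l (r ^ k)) := by
    have h5 := Nat.gcd_eq_gcd_ab l (r ^ k)
    rw [hg] at h5
    rw [← zpow_natCast, ← zpow_natCast, ← zpow_mul, ← zpow_mul, ← zpow_add, ← h5]
    simp
  rw [hb1]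
  exact (c1.zpow_right _).mul_right (c2.zpow_right _)

/-- the case of a prime power -/
theorem comm_of_prime_pow (h : IsoC G m) {r : ℕ} (hr : r.Prime) (hrm : ∀ t, t.Prime → t ∣ m → t = r) (h5 : 5 ≤ r)
    {c : ℕ} (hc : c ≤ 4) (hcm : Nat.card G / m ≡ c [MOD m]) {y : G} (hy : orderOf y = r) (hrm' : r ∣ m) :
    ∀ a ∈ centralizer ({y} : Set G), ∀ b ∈ centralizer ({y} : Set G), Commute a b := by
  classical
  have hm0 : 0 < m := by have := h.one; omega
  set T := centralizer ({y} : Set G) with hT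
  have hTm : Nat.card T = m := h.cent r y hr hrm' (by rw [hy])
  have hmr : m = r ^ m.primeFactorsList.length := Nat.eq_prime_pow_of_unique_prime_dvd hm0.ne' (fun {d} hd hdm => hrm d hd hdm)
  have := Fact.mk hr
  have hmG : m * (Nat.card G / m) = Nat.card G := Nat.mul_div_cancel' h.dvd
  -- `m` is the full power of `r`
  have hfac : m = r ^ (Nat.card G).factorization r := by
    have h1 : Nat.card G / m ≠ 0 := by
      intro h2
      rw [h2, mul_zero] at hmG
      exact Nat.card_pos.ne hmG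
    have h2 : ¬ r ∣ Nat.card G / m := by
      intro h3
      have := Nat.dvd_gcd hrm' h3
      rw [h.cop] at this
      exact hr.one_lt.ne' (Nat.dvd_one.1 this)
    conv_rhs => rw [← hmG]
    rw [Nat.factorization_mul hm0.ne' h1, Finsupp.add_apply, Nat.factorization_eq_zero_of_not_dvd h2, add_zero]
    conv_rhs => rw [hmr]
    rw [Nat.Prime.factorization_pow hr, Finsupp.single_eq_same]
    exact hmr
  let P : Sylow r G := Sylow.ofCard T (hTm.trans hfac)
  have hP : (P : Subgroup G) = T := rfl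
  by_contra hcon
  -- the centre of `T`
  have hZ : 5 * Nat.card (center T) ≤ m := by
    have h1 : Nat.card (center T) * (center T).index = m := by rw [Subgroup.card_mul_index, hTm]
    have h2 : (center T).index ≠ 1 := by
      intro h3
      rw [Subgroup.index_eq_one] at h3
      apply hcon
      intro a ha b hb
      have h4 : (⟨b, hb⟩ : T) ∈ center T := h3 ▸ Subgroup.mem_top _
      exact congrArg Subtype.val (Subgroup.mem_center_iff.1 h4 ⟨a, ha⟩)
    obtain ⟨t, ht, htd⟩ := Nat.exists_prime_and_dvd h2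
    have h3 : t = r := hrm t ht (htd.trans (h1 ▸ Dvd.intro_left _ rfl))
    subst h3
    have h4 : t ≤ (center T).index :=
      Nat.le_of_dvd (Nat.pos_of_ne_zero Subgroup.index_ne_zero_of_finite) htd
    calc 5 * Nat.card (center T) = Nat.card (center T) * 5 := by ring
      _ ≤ Nat.card (center T) * (center T).index := Nat.mul_le_mul_left _ (by omega)
      _ = m := h1
  -- nontrivial elements with `g ^ m = 1`
  let Y : Type _ := {g : G // g ^ m = 1 ∧ g ≠ 1}
  have hX : Nat.card {g : G // g ^ m = 1} = Nat.card Y + 1 := by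
    have := Fintype.ofFinite G
    rw [Nat.card_eq_fintype_card, Nat.card_eq_fintype_card, Fintype.card_subtype, Fintype.card_subtype]
    have h4 : (Finset.univ.filter fun t : G => t ^ m = 1 ∧ t ≠ 1) =
        (Finset.univ.filter fun t : G => t ^ m = 1).erase 1 := by
      ext t
      simp only [Finset.mem_filter, Finset.mem_univ, true_and, Finset.mem_erase]
      tauto
    rw [h4, Finset.card_erase_add_one]
    simp
  have hord : ∀ t : Y, r ∣ orderOf t.1 := by
    intro t
    have h1 : orderOf t.1 ∣ m := orderOf_dvd_of_pow_eq_one t.2.1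
    have h2 : orderOf t.1 ≠ 1 := fun h3 => t.2.2 (orderOf_eq_one_iff.1 h3)
    obtain ⟨q, hq, hqd⟩ := Nat.exists_prime_and_dvd h2
    exact (hrm q hq (hqd.trans h1)) ▸ hqd
  have hact1 : ∀ (x : G) (t : Y), (x * t.1 * x⁻¹) ^ m = 1 ∧ x * t.1 * x⁻¹ ≠ 1 := by
    intro x t
    constructor
    · rw [conj_pow, t.2.1]; simp
    · intro h1
      apply t.2.2
      have : x⁻¹ * (x * t.1 * x⁻¹) * x = 1 := by rw [h1]; simp
      simpa [mul_assoc] using this
  let act : MulAction G Y :=
    { smul := fun x t => ⟨x * t.1 * x⁻¹, hact1 x t⟩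
      one_smul := fun t => Subtype.ext (by
        change (1 : G) * t.1 * (1 : G)⁻¹ = t.1
        simp)
      mul_smul := fun x y t => Subtype.ext (by
        change (x * y) * t.1 * (x * y)⁻¹ = x * (y * t.1 * y⁻¹) * x⁻¹
        simp [mul_assoc]) }
  have hstab : ∀ t : Y, Nat.card (MulAction.stabilizer G t) = m := by
    intro t
    rw [← h.cent r t.1 hr hrm' (hord t)]
    congr 2
    ext x
    rw [MulAction.mem_stabilizer_iff, mem_cent']
    constructor
    · intro hx
      have h2 : x * t.1 * x⁻¹ = t.1 := congrArg (fun y : Y => y.1) hx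
      exact mul_inv_eq_iff_eq_mul.1 h2
    · intro hx
      apply Subtype.ext
      exact mul_inv_eq_iff_eq_mul.2 hx
  obtain ⟨k, hk⟩ := Cfsg.Agent.Lib.ActCount.exists_card_mul (H := G) (Y := Y) m hstab
  -- every element of `Y` is conjugate to a central element of `T`
  have hconj : ∀ t : Y, ∃ (z : {z : center T // z ≠ 1}) (g : G), t.1 = g * ((z.1 : T) : G) * g⁻¹ := by
    intro t
    have h1 : Nat.card (centralizer ({t.1} : Set G)) = r ^ (Nat.card G).factorization r :=
      (h.cent r t.1 hr hrm' (hord t)).trans hfac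
    let Q : Sylow r G := Sylow.ofCard _ h1
    obtain ⟨g, hg⟩ := MulAction.exists_smul_eq G P Q
    have h2 : ∀ x : G, x ∈ T ↔ g * x * g⁻¹ ∈ centralizer ({t.1} : Set G) := by
      intro x
      have h3 : (Q : Subgroup G) = centralizer ({t.1} : Set G) := rfl
      rw [← h3, ← hg, ← hP]
      change _ ↔ g * x * g⁻¹ ∈ (MulAut.conj g) • (P : Subgroup G)
      rw [Subgroup.mem_smul_pointwise_iff_exists]
      constructor
      · intro hx
        exact ⟨x, hx, rfl⟩
      · rintro ⟨s, hs, hs2⟩
        have h4 : s = x := by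
          have : g * s * g⁻¹ = g * x * g⁻¹ := hs2
          exact mul_left_cancel (mul_right_cancel this)
        rwa [← h4]
    have h3 : g⁻¹ * t.1 * g ∈ T := by
      rw [h2, mem_cent']
      have : g * (g⁻¹ * t.1 * g) * g⁻¹ = t.1 := by simp [mul_assoc]
      rw [this]
    have h4 : (⟨g⁻¹ * t.1 * g, h3⟩ : T) ∈ center T := by
      rw [Subgroup.mem_center_iff]
      intro x
      apply Subtype.ext
      change (x : G) * (g⁻¹ * t.1 * g) = (g⁻¹ * t.1 * g) * (x : G)
      have h5 : Commute (g * (x : G) * g⁻¹) t.1 := mem_cent'.1 ((h2 x).1 x.2)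
      have h6 := h5.map (MulAut.conj g⁻¹).toMonoidHom
      have h7 : Commute (x : G) (g⁻¹ * t.1 * g) := by simpa [mul_assoc] using h6
      exact h7.eq
    refine ⟨⟨⟨_, h4⟩, ?_⟩, g, ?_⟩
    · intro h5
      apply t.2.2
      have h6 : g⁻¹ * t.1 * g = 1 := congrArg (fun z : center T => ((z : T) : G)) h5
      have : g * (g⁻¹ * t.1 * g) * g⁻¹ = 1 := by rw [h6]; simp
      simpa [mul_assoc] using this
    · change t.1 = g * (g⁻¹ * t.1 * g) * g⁻¹
      simp [mul_assoc]
  choose z g hzg using hconj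
  have hTcomm : ∀ (w : {z : center T // z ≠ 1}) (s : T), (s : G) * ((w.1 : T) : G) * (s : G)⁻¹ = ((w.1 : T) : G) := by
    intro w s
    have h1 := Subgroup.mem_center_iff.1 w.1.2 s
    have h2 : (s : G) * ((w.1 : T) : G) = ((w.1 : T) : G) * (s : G) := congrArg Subtype.val h1
    exact mul_inv_eq_iff_eq_mul.2 h2
  let φ : Y × T → {z : center T // z ≠ 1} × G := fun p => (z p.1, g p.1 * p.2)
  have hφ : Function.Injective φ := by
    rintro ⟨t, s⟩ ⟨t', s'⟩ hts
    have h1 : z t = z t' := congrArg Prod.fst hts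
    have h2 : g t * (s : G) = g t' * (s' : G) := congrArg Prod.snd hts
    have h3 : t.1 = (g t * (s : G)) * (((z t).1 : T) : G) * (g t * (s : G))⁻¹ := by
      conv_lhs => rw [hzg t, ← hTcomm (z t) s]
      simp [mul_assoc]
    have h4 : t'.1 = (g t' * (s' : G)) * (((z t').1 : T) : G) * (g t' * (s' : G))⁻¹ := by
      conv_lhs => rw [hzg t', ← hTcomm (z t') s']
      simp [mul_assoc]
    have h5 : t = t' := by
      apply Subtype.ext
      rw [h3, h4, h1, h2]
    subst h5
    have h6 : s = s' := Subtype.ext (mul_left_cancel h2)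
    rw [h6]
  have hle : Nat.card Y * m ≤ (Nat.card (center T) - 1) * Nat.card G := by
    have h1 := Nat.card_le_card_of_injective φ hφ
    rw [Nat.card_prod, Nat.card_prod, hTm] at h1
    have h2 : Nat.card {z : center T // z ≠ 1} = Nat.card (center T) - 1 := by
      have := Fintype.ofFinite (center T)
      rw [Nat.card_eq_fintype_card, Nat.card_eq_fintype_card, Fintype.card_subtype_compl, Fintype.card_subtype_eq]
    rwa [h2] at h1
  have hkz : k ≤ Nat.card (center T) - 1 := by
    rw [mul_comm, hk] at hle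
    exact Nat.le_of_mul_le_mul_right hle Nat.card_pos
  have hYk : Nat.card Y = k * (Nat.card G / m) := by
    apply Nat.eq_of_mul_eq_mul_left hm0
    rw [hk]
    conv_lhs => rw [← hmG]
    ring
  have hfrob : m ∣ Nat.card {g : G // g ^ m = 1} := Cfsg.Agent.H418.Frob.frobenius_dvd m h.dvd
  rw [hX, hYk] at hfrob
  have h1 : m ∣ k * c + 1 := by
    have h2 : k * (Nat.card G / m) + 1 ≡ k * c + 1 [MOD m] := (hcm.mul_left k).add_right 1
    exact (Nat.modEq_zero_iff_dvd).1 (h2.symm.trans ((Nat.modEq_zero_iff_dvd).2 hfrob))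
  have h2 := Nat.le_of_dvd (by omega) h1
  have h3 : k * c ≤ (Nat.card (center T) - 1) * 4 := Nat.mul_le_mul hkz hc
  have h4 : 0 < Nat.card (center T) := Nat.card_pos
  omega

theorem exists_isol (h : IsoC G m) (h5 : ∀ r, r.Prime → r ∣ m → 5 ≤ r) {c : ℕ} (hc : c ≤ 4)
    (hcm : Nat.card G / m ≡ c [MOD m]) : ∃ T : Subgroup G, IsolA G T m := by
  obtain ⟨r, hr, hrm⟩ := Nat.exists_prime_and_dvd h.one.ne'
  have := Fact.mk hr
  obtain ⟨y, hy⟩ := exists_prime_orderOf_dvd_card' (G := G) r (hrm.trans h.dvd)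
  refine ⟨centralizer ({y} : Set G), ?_, h.cent r y hr hrm (by rw [hy]), h.cop,
    fun r s hr _ hrm hsm => h.noEdge hr hrm hsm⟩
  by_cases h1 : ∃ r', r'.Prime ∧ r' ∣ m ∧ r' ≠ r
  · obtain ⟨r', hr', hrm', hne⟩ := h1
    exact h.comm_of_two hr hrm hr' hrm' hne hy
  · push Not at h1
    exact h.comm_of_prime_pow hr h1 (h5 r hr hrm) hc hcm hy hrm

/-- **Structure theorem** for groups with isolated centralizers of odd order `m` with `|G| / m ≡ c mod m`, `c ≤ 4`. -/
theorem struct (h : IsoC G m) (h5 : ∀ r, r.Prime → r ∣ m → 5 ≤ r) {c : ℕ} (hc : c ≤ 4)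
    (hcm : Nat.card G / m ≡ c [MOD m]) :
    ∃ (K : Subgroup G) (_ : K.Normal), (Nat.card K).Coprime m ∧
      (∀ t, t.Prime → m ∣ t ^ (Nat.card K).factorization t - 1) ∧
      (Nat.card G = Nat.card K * (m * c) ∨
        ∃ N : Subgroup (G ⧸ K), N.Normal ∧ IsSimpleGroup N ∧ (¬ ∀ a b : N, a * b = b * a) ∧
          centralizer (N : Set (G ⧸ K)) = ⊥ ∧ m ∣ Nat.card N ∧ ∃ n', 1 < n' ∧ n' * N.index = c) := by
  obtain ⟨T, hT⟩ := h.exists_isol h5 hc hcm
  have h2 : ¬ 2 ∣ m := fun h2 => by
    have := h5 2 Nat.prime_two h2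
    omega
  obtain ⟨K, hKn, n, hKm, hparts, ⟨hn1, hn2⟩, hcases⟩ := hT.struct h.one h2
  have hm5 : 5 ≤ m := by
    obtain ⟨r, hr, hrm⟩ := Nat.exists_prime_and_dvd h.one.ne'
    exact (h5 r hr hrm).trans (Nat.le_of_dvd (by have := h.one; omega) hrm)
  have hnc : n = c := by
    refine Nat.ModEq.eq_of_lt_of_lt (hn2.symm.trans hcm) ?_ (by omega)
    have := Nat.le_of_dvd (by omega) hn1
    omega
  subst hnc
  exact ⟨K, hKn, hKm, hparts, hcases⟩

end IsoC

end Cfsg.Agent.H812.CS
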