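import Mathlib
import Cfsg.Agent.H812.CS.Abel
import Cfsg.Agent.H431.CS.Defs

/-!
# From an isolated cyclic Hall subgroup of `S` to `IsoC G m` (helper812)
-/

set_option autoImplicit false

namespace Cfsg.Agent.H812.CS

open Subgroup Cfsg.Agent.H364 Cfsg.Agent.H370.AAM Cfsg.Agent.H431.CS

variable {S : Type*} [Group S] [Finite S] {T : Subgroup S} {m : ℕ}

theorem isol_cent (h : Isol S T m) {t : S} (ht : t ∈ T) (ht1 : t ≠ 1) : centralizer ({t} : Set S) = T := by
  apply le_antisymm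
  · intro x hx
    exact h.commute_mem ht ht1 (mem_cent'.1 hx).symm
  · intro x hx
    exact mem_cent'.2 (h.comm hx ht)

/-- the centralizer orders divisible by `r ∣ m` -/
theorem isol_card_cent (h : Isol S T m) {r : ℕ} (hr : r.Prime) (hrm : r ∣ m) {z : S} (hz : z ≠ 1)
    (hrz : r ∣ Nat.card (centralizer ({z} : Set S))) : Nat.card (centralizer ({z} : Set S)) = m := by
  have := Fact.mk hr
  obtain ⟨y, hy⟩ := exists_prime_orderOf_dvd_card' r hrz
  have hy' : orderOf (y : S) = r := by rw [Subgroup.orderOf_coe, hy]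
  have hyp : IsPGroup r (zpowers (y : S)) := IsPGroup.of_card (n := 1) (by rw [Nat.card_zpowers, hy', pow_one])
  obtain ⟨R, hRT⟩ := h.exists_sylow hrm
  obtain ⟨R', hR'⟩ := hyp.exists_le_sylow
  obtain ⟨g, hg⟩ := MulAction.exists_smul_eq S R R'
  have h' := h.conj g
  have hyT : (y : S) ∈ T.map (MulAut.conj g).toMonoidHom := by
    have h1 : (R' : Subgroup S) ≤ T.map (MulAut.conj g).toMonoidHom := by
      rw [← hg]
      exact Subgroup.map_mono hRT
    exact h1 (hR' (mem_zpowers _))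
  have hy1 : (y : S) ≠ 1 := by
    intro h1
    rw [h1, orderOf_one] at hy'
    exact hr.one_lt.ne hy'
  have hzT : z ∈ T.map (MulAut.conj g).toMonoidHom := h'.commute_mem hyT hy1 (mem_cent'.1 y.2)
  rw [isol_cent h' hzT hz, h'.card]

/-- `Lat` from an isolated cyclic Hall subgroup -/
theorem lat_of_isol (h : Isol S T m) (hm : 1 < m) {r p : ℕ} (hr : r.Prime) (hrm : r ∣ m) (hp : p.Prime)
    (hpm : ¬ p ∣ m) (hpS : p ∣ Nat.card S) : Lat S p r m := by
  have := Fact.mk hp
  have hc : ∀ c ∈ Co S, c ≠ Nat.card S → r ∣ c → c = m := by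
    rintro _ ⟨z, rfl⟩ hz hrz
    refine isol_card_cent h hr hrm ?_ hrz
    rintro rfl
    apply hz
    have : centralizer ({(1 : S)} : Set S) = ⊤ := by
      ext x
      simp [mem_cent']
    dsimp only
    rw [this, Subgroup.card_top]
  have hT : ∃ t ∈ T, t ≠ 1 := by
    have : T ≠ ⊥ := by
      rintro rfl
      have := h.card
      rw [Subgroup.card_bot] at this
      omega
    obtain ⟨t, ht⟩ := Subgroup.ne_bot_iff_exists_ne_one.1 this
    exact ⟨t, t.2, fun h => ht (Subtype.ext h)⟩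
  have hpf : (Nat.card S).factorization p ≠ 0 := (hp.factorization_pos_of_dvd Nat.card_pos.ne' hpS).ne'
  refine ⟨hrm.trans h.dvd, ?_, ?_, ?_, hpm, fun c hc1 hc2 hc3 _ => hc c hc1 hc2 hc3, ?_, ?_⟩
  · obtain ⟨z, hz⟩ := exists_prime_orderOf_dvd_card' (G := S) p hpS
    refine ⟨_, mem_co z, fun h1 => hpm ?_⟩
    have hz1 : z ≠ 1 := by
      rintro rfl
      rw [orderOf_one] at hz
      exact hp.one_lt.ne hz
    rw [← isol_card_cent h hr hrm hz1 h1]
    have := Subgroup.orderOf_mk z (mem_cent'.2 (Commute.refl z))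
    rw [← hz, ← this]
    exact orderOf_dvd_natCard _
  · obtain ⟨t, ht, ht1⟩ := hT
    refine ⟨t, ?_⟩
    dsimp only
    rw [isol_cent h ht ht1, h.card]
  · rw [← h.factorization_eq hr hrm]
    exact Nat.ordProj_dvd m r
  · intro c hc1 hc2 hc3 hc4
    rw [hc c hc1 hc2 hc3] at hc4
    exact hpm ((dvd_pow_self p hpf).trans hc4)
  · intro c hc1 hc2 hc3 hc4
    rw [hc c hc1 hc2 hc3] at hc4
    exact absurd hc4 hpm

/-- **`IsoC G m` from an isolated cyclic Hall subgroup of order `m` of `S`.** -/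
theorem isoC_of_isol (h : Isol S T m) (hm : 1 < m) (hmS : m ≠ Nat.card S) {G : Type*} [Group G] [Finite G]
    (hG : Same G S) : IsoC G m := by
  refine ⟨hm, hG.card ▸ h.dvd, hG.card ▸ h.cop, ?_⟩
  intro r y hr hrm hy
  have h1 : Nat.card S / m ≠ 1 := by
    intro h1
    have := h.mul_eq
    rw [h1, mul_one] at this
    exact hmS this
  obtain ⟨p, hp, hpd⟩ := Nat.exists_prime_and_dvd h1
  have hpm : ¬ p ∣ m := by
    intro h2
    have := Nat.dvd_gcd h2 hpd
    rw [h.cop] at this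
    exact hp.one_lt.ne' (Nat.dvd_one.1 this)
  have hpS : p ∣ Nat.card S := by
    rw [← h.mul_eq]
    exact hpd.mul_left m
  exact (lat_of_isol h hm hr hrm hp hpm hpS).card_cent hr hp (by rintro rfl; exact hpm hrm) hG hy

end Cfsg.Agent.H812.CS
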