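import Mathlib
import Cfsg.Agent.H364.PSUThree
import Cfsg.Agent.Classification.SmallOrders.N756
import Cfsg.Agent.SmallSimple.EvenOrder
import Cfsg.Agent.H812.CS.LatIsol

/-!
# S3677: row `PSU₃(q)`, `q ≥ 3` (helper812)

A group with the order and the centralizer orders of `PSU₃(q)` is simple.
-/

set_option autoImplicit false

namespace Cfsg.Agent.H812.CS

open Subgroup Cfsg Cfsg.Agent.H364 Cfsg.Agent.H364.Unitary Cfsg.Agent.H364.ArithU3
  Cfsg.Agent.H364.PSUThree Cfsg.Agent.H431.CS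

variable {G : Type*} [Group G] [Finite G] {F : Type*} [Field F] [Fintype F] {s : ℕ}

theorem mm_cop' {s : ℕ} : (mm s).Coprime ((s + 1) ^ 3 * (s * (s + 2) ^ 2)) := by
  have hmd : mm s ∣ s ^ 2 + s + 1 := Dvd.intro _ (mm_mul s)
  have h1 : (mm s).Coprime (s + 1) := by
    apply Nat.coprime_of_dvd
    intro k hk hkm hks
    have h2 : k ∣ s * (s + 1) + 1 := by
      have := hkm.trans hmd
      rwa [show s ^ 2 + s + 1 = s * (s + 1) + 1 by ring] at this
    have h3 := (Nat.dvd_add_right (hks.mul_left s)).1 h2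
    exact hk.one_lt.ne' (Nat.dvd_one.1 h3)
  have h2 : (mm s).Coprime s := by
    apply Nat.coprime_of_dvd
    intro k hk hkm hks
    have h2 : k ∣ s * (s + 1) + 1 := by
      have := hkm.trans hmd
      rwa [show s ^ 2 + s + 1 = s * (s + 1) + 1 by ring] at this
    have h3 := (Nat.dvd_add_right (hks.mul_right (s + 1))).1 h2
    exact hk.one_lt.ne' (Nat.dvd_one.1 h3)
  have h3 : (mm s).Coprime (s + 2) := by
    apply Nat.coprime_of_dvd
    intro k hk hkm hks
    have h4 : k ∣ (s + 2) * (s + 2) := hks.mul_left _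
    have h5 : (s + 2) * (s + 2) + (s ^ 2 + s + 1) + (s ^ 2 + s + 1) = 3 * (s + 1) * (s + 1) + 3 := by ring
    have h6 : k ∣ 3 * ((s + 1) * (s + 1) + 1) := by
      have h7 : k ∣ (s + 2) * (s + 2) + (s ^ 2 + s + 1) + (s ^ 2 + s + 1) :=
        Nat.dvd_add (Nat.dvd_add h4 (hkm.trans hmd)) (hkm.trans hmd)
      rw [h5] at h7
      rw [show 3 * ((s + 1) * (s + 1) + 1) = 3 * (s + 1) * (s + 1) + 3 by ring]
      exact h7
    rcases (Nat.Prime.dvd_mul hk).1 h6 with h7 | h7
    · have := (Nat.prime_dvd_prime_iff_eq hk Nat.prime_three).1 h7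
      subst this
      exact mm_cop_three s hkm
    · -- `k ∣ (s+1)^2 + 1` and `k ∣ s^2 + s + 1`, so `k ∣ s + 1`
      have h8 : (s + 1) * (s + 1) + 1 = (s ^ 2 + s + 1) + (s + 1) := by ring
      rw [h8] at h7
      have h9 := (Nat.dvd_add_right (hkm.trans hmd)).1 h7
      have h10 : k ∣ 1 := by
        have : s + 2 = (s + 1) + 1 := rfl
        rw [this] at hks
        exact (Nat.dvd_add_right h9).1 hks
      exact hk.one_lt.ne' (Nat.dvd_one.1 h10)
  exact Nat.Coprime.mul_right (h1.pow_right 3) (Nat.Coprime.mul_right h2 (h3.pow_right 2))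

/-- there is a prime `r ∣ mm s` with `r ∣ p ^ m - 1 ↔ 6 f ∣ m` -/
theorem exists_zsig' {p f : ℕ} (hp : p.Prime) (hf : 0 < f) (hs : 2 ≤ s) (h : s + 1 = p ^ f) :
    ∃ r : ℕ, r.Prime ∧ r ∣ mm s ∧ ∀ m, r ∣ p ^ m - 1 ↔ 6 * f ∣ m := by
  obtain ⟨r, hr, hrm, -, hra⟩ := Cfsg.Agent.Lib.Zsigmondy.exists_primitive (a := p) (n := 6 * f) hp.two_le (by omega)
    (by omega) (by
      rintro ⟨rfl, h6⟩
      have : f = 1 := by omega
      subst this
      omega)
  refine ⟨r, hr, ?_, hrm⟩
  have h1 : r ∣ p ^ (6 * f) - 1 := (hrm _).2 dvd_rfl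
  have h2 : p ^ (6 * f) - 1 = (p ^ (3 * f) - 1) * (p ^ (3 * f) + 1) := by
    have := Nat.sq_sub_sq (p ^ (3 * f)) 1
    rw [one_pow] at this
    rw [show 6 * f = 3 * f * 2 by ring, pow_mul, this, mul_comm]
  have h3 : ¬ r ∣ p ^ (3 * f) - 1 := fun h4 => by
    have := Nat.le_of_dvd (by omega) ((hrm _).1 h4)
    omega
  have h4 : ¬ r ∣ p ^ (2 * f) - 1 := fun h4 => by
    have := Nat.le_of_dvd (by omega) ((hrm _).1 h4)
    omega
  rw [h2] at h1
  have h5 : r ∣ p ^ (3 * f) + 1 := ((Nat.Prime.dvd_mul hr).1 h1).resolve_left h3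
  have h6 : p ^ (3 * f) + 1 = (s ^ 2 + s + 1) * (s + 2) := by
    rw [mul_comm 3 f, pow_mul, ← h]; ring
  have h7 : ¬ r ∣ s + 2 := by
    intro h8
    apply h4
    have : p ^ (2 * f) - 1 = s * (s + 2) := by
      rw [mul_comm 2 f, pow_mul, ← h]
      have : (s + 1) ^ 2 = s * (s + 2) + 1 := by ring
      omega
    rw [this]
    exact h8.mul_left s
  rw [h6] at h5
  have h8 : r ∣ s ^ 2 + s + 1 := ((Nat.Prime.dvd_mul hr).1 h5).resolve_right h7
  rw [← mm_mul] at h8
  refine ((Nat.Prime.dvd_mul hr).1 h8).resolve_right fun h9 => h7 (h9.trans (Nat.gcd_dvd_right 3 (s + 2)))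


theorem exists_isol' (hF : Fintype.card F = (s + 1) ^ 2) (hs : 2 ≤ s) :
    ∃ T : Subgroup (PSU 3 F (s + 1)), Isol (PSU 3 F (s + 1)) T (mm s) := by
  obtain ⟨x, hx⟩ := exists_orderOf_mm hF hs
  have h0 : 0 < mm s := by have := one_lt_mm hs; omega
  refine ⟨zpowers x, inferInstance, by rw [Nat.card_zpowers, hx], ?_, ?_⟩
  · rw [card_psu hF, Nat.mul_div_cancel _ h0]
    exact mm_cop'
  · intro r t hr ht hrm htm z hz
    have h1 := orderOf_dvd_mm hF hr hrm (x := z) (by rw [hz]; exact Dvd.intro _ rfl)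
    rw [hz] at h1
    exact htm ((Dvd.intro_left _ rfl).trans h1)

theorem psu_three_isoC (hF : Fintype.card F = (s + 1) ^ 2) (hs : 2 ≤ s) (h : Same G (PSU 3 F (s + 1))) :
    IsoC G (mm s) := by
  have hc := card_psu hF
  obtain ⟨T, hT⟩ := exists_isol' hF hs
  refine isoC_of_isol hT (one_lt_mm hs) ?_ h
  rw [hc]
  intro h1
  have h2 : 0 < mm s := by have := one_lt_mm hs; omega
  have h3 : 2 ≤ (s + 1) ^ 3 * (s * (s + 2) ^ 2) := by
    have h4 : 1 ≤ (s + 1) ^ 3 := Nat.one_le_pow _ _ (by omega)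
    have h5 : 2 ≤ s * (s + 2) ^ 2 := by nlinarith
    nlinarith
  nlinarith

theorem psu_three_five {r : ℕ} (hr : r.Prime) (hrm : r ∣ mm s) : 5 ≤ r := by
  have h2 : r ≠ 2 := by rintro rfl; exact mm_odd s hrm
  have h3 : r ≠ 3 := by rintro rfl; exact mm_cop_three s hrm
  have h4 : r ≠ 4 := by rintro rfl; revert hr; decide
  have := hr.two_le
  omega

theorem psu_three_mod : (s + 1) ^ 3 * (s * (s + 2) ^ 2) ≡ 3 [MOD mm s] := by
  have h5 : ((s : ZMod (mm s))) ^ 2 + s + 1 = 0 := by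
    have := (ZMod.natCast_eq_zero_iff (s ^ 2 + s + 1) (mm s)).2 (Dvd.intro _ (mm_mul s))
    push_cast at this
    exact this
  rw [← ZMod.natCast_eq_natCast_iff]
  push_cast
  linear_combination ((s : ZMod (mm s)) ^ 4 + 6 * s ^ 3 + 12 * s ^ 2 + 7 * s - 3) * h5

theorem psu_three_simple_of (hF : Fintype.card F = (s + 1) ^ 2) (hs : 2 ≤ s)
    (hsame : Same G (PSU 3 F (s + 1))) : IsSimpleGroup G ∧ ¬ ∀ a b : G, a * b = b * a := by
  have hcard := hsame.card
  rw [card_psu hF] at hcard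
  have hT := psu_three_isoC hF hs hsame
  obtain ⟨K, hKn, hKm, hparts, hcases⟩ := hT.struct (c := 3) (fun r hr hrm => psu_three_five hr hrm) (by norm_num) (by
    rw [hcard, Nat.mul_div_cancel _ (by have := one_lt_mm hs; omega)]
    exact psu_three_mod)
  have hm0 : 0 < mm s := by have := one_lt_mm hs; omega
  obtain ⟨p, f, hp, hchar, hq, hf⟩ := Cfsg.Agent.LieClassical.HermBasic.exists_prime_pow hF
  obtain ⟨r, hr, hrm, hrz⟩ := exists_zsig' hp hf hs hq
  have hKG : Nat.card K ∣ Nat.card G := Subgroup.card_subgroup_dvd_card K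
  have hps : ¬ p ∣ s * (s + 2) ^ 2 := by
    have h1 : p ∣ s + 1 := by rw [hq]; exact dvd_pow_self p hf.ne'
    intro h2
    rcases (Nat.Prime.dvd_mul hp).1 h2 with h3 | h3
    · have := (Nat.dvd_add_right h3).1 h1
      exact hp.one_lt.ne' (Nat.dvd_one.1 this)
    · have h4 := hp.dvd_of_dvd_pow h3
      have := (Nat.dvd_add_right h1).1 (show p ∣ (s + 1) + 1 from h4)
      exact hp.one_lt.ne' (Nat.dvd_one.1 this)
  have hpm : ¬ p ∣ mm s := by
    intro h1
    have h2 : p ∣ (s + 1) ^ 3 * (s * (s + 2) ^ 2) := by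
      rw [hq]
      exact (dvd_pow (dvd_pow_self p hf.ne') (by norm_num)).mul_right _
    have h3 := Nat.dvd_gcd h1 h2
    rw [(mm_cop' (s := s))] at h3
    exact hp.one_lt.ne' (Nat.dvd_one.1 h3)
  -- the `p`-part of `|K|` is trivial
  have hKp : (Nat.card K).factorization p = 0 := by
    have h1 : 6 * f ∣ (Nat.card K).factorization p := (hrz _).1 (hrm.trans (hparts p hp))
    have h2 : p ^ (Nat.card K).factorization p ∣ p ^ (3 * f) * (s * (s + 2) ^ 2 * mm s) := by
      rw [mul_comm 3 f, pow_mul, ← hq, ← mul_assoc, ← hcard]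
      exact (Nat.ordProj_dvd _ p).trans hKG
    have h3 : Nat.Coprime (p ^ (Nat.card K).factorization p) (s * (s + 2) ^ 2 * mm s) := by
      apply Nat.Coprime.pow_left
      rw [Nat.Prime.coprime_iff_not_dvd hp, Nat.Prime.dvd_mul hp]
      tauto
    have h4 := h3.dvd_of_dvd_mul_right h2
    have h5 := (Nat.pow_dvd_pow_iff_le_right hp.one_lt).1 h4
    by_contra h6
    have := Nat.le_of_dvd (Nat.pos_of_ne_zero h6) h1
    omega
  have hpK : ¬ p ∣ Nat.card K := by
    intro h1
    have := hp.factorization_pos_of_dvd Nat.card_pos.ne' h1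
    omega
  rcases hcases with hA | ⟨N, hNn, hNs, hNna, hNc, hNm, n', hn', hidx⟩
  · exfalso
    rw [hcard, hq] at hA
    have h1 : p ^ (3 * f) ∣ Nat.card K * (mm s * 3) := by
      rw [← hA, mul_comm 3 f, pow_mul, mul_assoc]
      exact Dvd.intro _ rfl
    have h2 : Nat.Coprime (p ^ (3 * f)) (Nat.card K) := Nat.Coprime.pow_left _ ((Nat.Prime.coprime_iff_not_dvd hp).2 hpK)
    have h3 := h2.dvd_of_dvd_mul_left h1
    have h4 : Nat.Coprime (p ^ (3 * f)) (mm s) := Nat.Coprime.pow_left _ ((Nat.Prime.coprime_iff_not_dvd hp).2 hpm)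
    have h5 := Nat.le_of_dvd (by norm_num) (h4.dvd_of_dvd_mul_left h3)
    have h6 : 2 ^ 3 ≤ p ^ (3 * f) := by
      calc 2 ^ 3 ≤ p ^ 3 := Nat.pow_le_pow_left hp.two_le 3
        _ ≤ p ^ (3 * f) := Nat.pow_le_pow_right hp.pos (by omega)
    omega
  have hidx1 : N.index = 1 := by
    have h1 : n' ∣ 3 := Dvd.intro _ hidx
    rcases (Nat.dvd_prime Nat.prime_three).1 h1 with h2 | h2
    · omega
    · subst h2; omega
  have hNtop : N = ⊤ := Subgroup.index_eq_one.1 hidx1
  subst hNtop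
  have eN : (⊤ : Subgroup (G ⧸ K)) ≃* G ⧸ K := Subgroup.topEquiv
  have hGKs : IsSimpleGroup (G ⧸ K) := by
    have : Nontrivial (G ⧸ K) := eN.symm.toEquiv.nontrivial
    exact IsSimpleGroup.isSimpleGroup_of_surjective eN.toMonoidHom eN.surjective
  have hGKna : ¬ ∀ a b : G ⧸ K, a * b = b * a := by
    intro h
    apply hNna
    intro a b
    exact eN.injective (by rw [map_mul, map_mul]; exact h _ _)
  have hGKna' : ¬ IsMulCommutative (G ⧸ K) := fun h => hGKna fun a b => h.is_comm.comm a b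
  have hGK : Nat.card G = Nat.card K * Nat.card (G ⧸ K) := by
    rw [← Subgroup.card_mul_index K, Subgroup.index_eq_card]
  -- the primes dividing `|K|`
  have hKt : ∀ t, t.Prime → t ∣ Nat.card K → t = 2 ∧ (Nat.card K).factorization t = 3 ∧ (s = 2 ∨ s = 4) := by
    intro t ht htK
    have htp : t ≠ p := fun h => hpK (h ▸ htK)
    have h1 := ht.factorization_pos_of_dvd Nat.card_pos.ne' htK
    have h2 : t ^ (Nat.card K).factorization t ∣ (s + 1) ^ 3 * (s * (s + 2) ^ 2) * mm s := by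
      rw [← hcard]
      exact (Nat.ordProj_dvd _ t).trans hKG
    have h3 : Nat.Coprime (t ^ (Nat.card K).factorization t) (mm s) :=
      Nat.Coprime.coprime_dvd_left (Nat.ordProj_dvd _ t) hKm
    have h4 := h3.dvd_of_dvd_mul_right h2
    have h5 : Nat.Coprime (t ^ (Nat.card K).factorization t) ((s + 1) ^ 3) := by
      rw [hq]
      exact Nat.Coprime.pow_left _ (((Nat.coprime_primes ht hp).2 htp).pow_right _ |>.pow_right _)
    have h6 := h5.dvd_of_dvd_mul_left h4
    have h7 := arith hs ht h1 h6 (hparts t ht)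
    exact ⟨h7.1, h7.2.1, h7.2.2⟩
  have hK1 : Nat.card K = 1 := by
    by_contra hK
    obtain ⟨t, ht, htK⟩ := Nat.exists_prime_and_dvd hK
    obtain ⟨rfl, h3, h4⟩ := hKt t ht htK
    have h8 : Nat.card K = 8 := by
      have := Nat.eq_prime_pow_of_unique_prime_dvd (n := Nat.card K) (p := 2) Nat.card_pos.ne'
        (fun {d} hd hdK => (hKt d hd hdK).1)
      have h9 : (Nat.card K).factorization 2 = (Nat.card K).primeFactorsList.length := by
        conv_lhs => rw [this]
        rw [Nat.Prime.factorization_pow Nat.prime_two]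
        simp
      rw [this, ← h9, h3]
      norm_num
    rw [hcard, h8] at hGK
    rcases h4 with rfl | rfl
    · have h9 : Nat.card (G ⧸ K) = 756 := by
        have : mm 2 = 7 := by decide
        rw [this] at hGK
        omega
      exact Cfsg.Agent.Classification.SmallOrders.N756.card_ne_756 hGKna' h9
    · have h9 : Nat.card (G ⧸ K) = 15750 := by
        have : mm 4 = 7 := by decide
        rw [this] at hGK
        omega
      have h10 := Cfsg.Agent.SmallSimple.EvenOrder.four_dvd_card hGKna' (by rw [h9]; norm_num)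
      rw [h9] at h10
      revert h10
      norm_num
  have hKbot : K = ⊥ := Subgroup.card_eq_one.1 hK1
  subst hKbot
  have e : G ⧸ (⊥ : Subgroup G) ≃* G := QuotientGroup.quotientBot
  constructor
  · have : Nontrivial G := e.symm.toEquiv.nontrivial
    exact IsSimpleGroup.isSimpleGroup_of_surjective e.toMonoidHom e.surjective
  · intro h
    apply hGKna
    intro a b
    exact e.injective (by rw [map_mul, map_mul]; exact h _ _)


/-- **Row `PSU₃(q)` of S3677.** -/
theorem row_psu_three {q : ℕ} (hF : Fintype.card F = q ^ 2) (hq : 3 ≤ q) (h : Same G (PSU 3 F q)) :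
    IsSimpleGroup G := by
  obtain ⟨s, rfl⟩ : ∃ s, q = s + 1 := ⟨q - 1, by omega⟩
  exact (psu_three_simple_of hF (by omega) h).1

end Cfsg.Agent.H812.CS
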